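import Mathlib
import Cfsg.Agent.LieClassical.OrthTrans
import Cfsg.Agent.H199.Out.Dick

/-!
# S5719: the index of `Ω(Q) = E Q` in `O Q` (helper353)

`Q` good, `F` finite.
* `sq_mem` : `g * g ∈ E Q` for `g ∈ O Q`;
* `mul_mem_det` (odd characteristic): `|SO : Ω| ≤ 2`; `four_mem` : the classes of `O Q` modulo `E Q`;
* `mul_mem_two`, `mem_of_even`, `even_E` (characteristic two): `|O : Ω| ≤ 2`, `Ω` is the kernel of the Dickson invariant;
* `det_E`, `det_refl`.
-/

set_option autoImplicit false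
set_option linter.unusedSectionVars false

namespace Cfsg.Agent.H353.IFO

open QuadraticMap Module
open Cfsg.Agent.LieClassical.OrthCore Cfsg.Agent.LieClassical.OrthTrans

variable {F V : Type*} [Field F] [AddCommGroup V] [Module F V] {Q : QuadraticForm F V}

theorem fd (hG : Good Q) : FiniteDimensional F V := Module.finite_of_finrank_pos (by have := hG.dim; omega)

/-- all values are taken -/
theorem exists_val (hG : Good Q) (c : F) : ∃ v, Q v = c := by
  obtain ⟨x, y, h⟩ := hG.exists_hyp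
  refine ⟨x + c • y, ?_⟩
  rw [Q_add, QuadraticMap.map_smul, h.left, h.right, polar_smul_right, h.pair]
  simp

theorem det_E (hG : Good Q) {a : V ≃ₗ[F] V} (ha : a ∈ E Q) : LinearMap.det (a : V →ₗ[F] V) = 1 := by
  rw [← hG.commutator_eq_E] at ha
  have h1 : a ∈ commutator (V ≃ₗ[F] V) := (Subgroup.commutator_mono le_top le_top : ⁅O Q, O Q⁆ ≤ ⁅⊤, ⊤⁆) ha
  have h2 := Abelianization.commutator_subset_ker (LinearEquiv.det (R := F) (M := V)) h1
  rw [MonoidHom.mem_ker] at h2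
  have h3 := congrArg Units.val h2
  rwa [LinearEquiv.coe_det, Units.val_one] at h3

theorem det_refl [FiniteDimensional F V] {v : V} (hv : Q v ≠ 0) :
    LinearMap.det (refl Q v hv : V →ₗ[F] V) = -1 := by
  have h1 : (refl Q v hv : V →ₗ[F] V) = LinearMap.transvection (-((Q v)⁻¹ • polarBilin Q v)) v := by
    ext x
    change refl Q v hv x = x + (-((Q v)⁻¹ • polarBilin Q v)) x • v
    rw [refl_apply, LinearMap.neg_apply, LinearMap.smul_apply, polarBilin_apply_apply, neg_smul, smul_eq_mul,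
      sub_eq_add_neg]
  rw [h1, LinearMap.transvection.det, LinearMap.neg_apply, LinearMap.smul_apply, polarBilin_apply_apply,
    polar_self', smul_eq_mul]
  field_simp
  ring

/-! ### the quotient -/

/-- `E Q` in `O Q` -/
abbrev EO (Q : QuadraticForm F V) : Subgroup (O Q) := (E Q).subgroupOf (O Q)

instance (Q : QuadraticForm F V) : (EO Q).Normal :=
  ⟨fun n hn g => by
    rw [Subgroup.mem_subgroupOf] at hn ⊢
    exact conj_mem_E g.2 hn⟩

/-- `O Q / E Q` -/
abbrev OE (Q : QuadraticForm F V) : Type _ := O Q ⧸ EO Q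

/-- the class of an isometry -/
def cl (g : V ≃ₗ[F] V) (hg : g ∈ O Q) : OE Q := QuotientGroup.mk' (EO Q) ⟨g, hg⟩

theorem cl_eq_one {g : V ≃ₗ[F] V} (hg : g ∈ O Q) : cl g hg = 1 ↔ g ∈ E Q := by
  unfold cl
  rw [QuotientGroup.mk'_apply, QuotientGroup.eq_one_iff, Subgroup.mem_subgroupOf]

theorem cl_mul {g h : V ≃ₗ[F] V} (hg : g ∈ O Q) (hh : h ∈ O Q) :
    cl (g * h) ((O Q).mul_mem hg hh) = cl g hg * cl h hh := rfl

theorem cl_eq {g h : V ≃ₗ[F] V} (hg : g ∈ O Q) (hh : h ∈ O Q) (h1 : cl g hg = cl h hh) : g⁻¹ * h ∈ E Q := by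
  unfold cl at h1
  rw [QuotientGroup.mk'_eq_mk'] at h1
  obtain ⟨z, hz, h2⟩ := h1
  have h3 : g * z.1 = h := congrArg Subtype.val h2
  rw [← h3, inv_mul_cancel_left]
  exact hz

theorem cl_eq' {g h : V ≃ₗ[F] V} (hg : g ∈ O Q) (hh : h ∈ O Q) (h1 : g⁻¹ * h ∈ E Q) : cl g hg = cl h hh := by
  have h2 := cl_mul hg (E_le_O h1)
  rw [(cl_eq_one (E_le_O h1)).2 h1, mul_one] at h2
  rw [← h2]
  congr 1
  exact mul_inv_cancel_left g h

theorem exists_cl (x : OE Q) : ∃ (g : V ≃ₗ[F] V) (hg : g ∈ O Q), cl g hg = x := by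
  obtain ⟨⟨g, hg⟩, h⟩ := QuotientGroup.mk'_surjective _ x
  exact ⟨g, hg, h⟩

theorem comm_aux {A : Type*} [Group A] (g h : A) : (g * h)⁻¹ * (h * g) = h⁻¹ * g⁻¹ * h⁻¹⁻¹ * g⁻¹⁻¹ := by
  group

theorem OE_comm (hG : Good Q) (x y : OE Q) : x * y = y * x := by
  obtain ⟨g, hg, rfl⟩ := exists_cl x
  obtain ⟨h, hh, rfl⟩ := exists_cl y
  rw [← cl_mul, ← cl_mul]
  apply cl_eq'
  rw [comm_aux, ← commutatorElement_def]
  exact hG.commutator_le_E (Subgroup.commutator_mem_commutator ((O Q).inv_mem hh) ((O Q).inv_mem hg))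

/-- the class of a reflection -/
def cr (v : V) (hv : Q v ≠ 0) : OE Q := cl (refl Q v hv) (refl_mem_O hv)

theorem cr_sq (v : V) (hv : Q v ≠ 0) : cr v hv * cr v hv = 1 := by
  unfold cr
  rw [← cl_mul, cl_eq_one, refl_mul_self]
  exact (E Q).one_mem

theorem cr_eq (hG : Good Q) {v w : V} (hv : Q v ≠ 0) (hw : Q w ≠ 0) {a : F} (h : Q v = a * a * Q w) :
    cr v hv = cr w hw := by
  have ha : a ≠ 0 := by
    rintro rfl
    rw [mul_zero, zero_mul] at h
    exact hv h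
  have hw' : Q (a • w) ≠ 0 := by
    rw [QuadraticMap.map_smul, smul_eq_mul, ← h]
    exact hv
  have h1 : refl Q w hw * refl Q v hv ∈ E Q := by
    rw [← refl_smul hw ha hw']
    apply hG.refl_mul_refl_mem
    rw [h, QuadraticMap.map_smul, smul_eq_mul]
  have h2 : cr w hw * cr v hv = 1 := by
    unfold cr
    rw [← cl_mul, cl_eq_one]
    exact h1
  calc cr v hv = cr w hw * (cr w hw * cr v hv) := by rw [← mul_assoc, cr_sq, one_mul]
    _ = cr w hw := by rw [h2, mul_one]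

theorem gen (hG : Good Q) (K : Subgroup (OE Q)) (hK : ∀ v (hv : Q v ≠ 0), cr v hv ∈ K) (x : OE Q) : x ∈ K := by
  have := fd hG
  obtain ⟨⟨g, hg⟩, rfl⟩ := QuotientGroup.mk'_surjective _ x
  have h1 : Subgroup.closure (reflSet Q ∪ siegelSet Q) ≤ (K.comap (QuotientGroup.mk' (EO Q))).map (O Q).subtype := by
    rw [Subgroup.closure_le]
    rintro _ (⟨v, hv, rfl⟩ | ⟨u, w, hu, hw, rfl⟩)
    · exact ⟨⟨refl Q v hv, refl_mem_O hv⟩, hK v hv, rfl⟩
    · refine ⟨⟨siegel Q u w hu hw, siegel_mem_O hu hw⟩, ?_, rfl⟩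
      change cl _ (siegel_mem_O hu hw) ∈ K
      rw [(cl_eq_one _).2 (siegel_mem_E hu hw)]
      exact K.one_mem
  have hg' := hg
  rw [O_eq_closure hG.nondeg] at hg'
  obtain ⟨⟨g', hg2⟩, h3, h4⟩ := h1 hg'
  have h5 : g' = g := h4
  subst h5
  exact h3

/-- squares of isometries are in `E Q` -/
theorem sq_mem (hG : Good Q) {g : V ≃ₗ[F] V} (hg : g ∈ O Q) : g * g ∈ E Q := by
  let K : Subgroup (OE Q) :=
    { carrier := {x | x * x = 1}
      mul_mem' := fun {a b} ha hb => by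
        change a * b * (a * b) = 1
        have ha' : a * a = 1 := ha
        have hb' : b * b = 1 := hb
        calc a * b * (a * b) = a * (b * a) * b := by simp only [mul_assoc]
          _ = a * (a * b) * b := by rw [OE_comm hG b a]
          _ = a * a * (b * b) := by simp only [mul_assoc]
          _ = 1 := by rw [ha', hb', one_mul]
      one_mem' := one_mul _
      inv_mem' := fun {a} ha => by
        change a⁻¹ * a⁻¹ = 1
        have ha' : a * a = 1 := ha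
        rw [← mul_inv_rev, ha', inv_one] }
  have h1 : cl g hg ∈ K := gen hG K (fun v hv => cr_sq v hv) _
  have h2 : cl g hg * cl g hg = 1 := h1
  rwa [← cl_mul, cl_eq_one] at h2

theorem four {A : Type*} [Group A] {α β : A} (hα : α * α = 1) (hβ : β * β = 1) (hc : β * α = α * β) :
    ∃ K : Subgroup A, ∀ x, x ∈ K ↔ x = 1 ∨ x = α ∨ x = β ∨ x = α * β := by
  have hα' : ∀ x, α * (α * x) = x := fun x => by rw [← mul_assoc, hα, one_mul]
  have hc' : ∀ x, β * (α * x) = α * (β * x) := fun x => by rw [← mul_assoc, hc, mul_assoc]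
  refine ⟨{ carrier := {x | x = 1 ∨ x = α ∨ x = β ∨ x = α * β}, mul_mem' := ?_, one_mem' := Or.inl rfl,
            inv_mem' := ?_ }, fun x => Iff.rfl⟩
  · intro a b ha hb
    simp only [Set.mem_ofPred_eq] at ha hb ⊢
    rcases ha with rfl | rfl | rfl | rfl <;> rcases hb with rfl | rfl | rfl | rfl <;>
      simp [mul_assoc, hα, hβ, hα', hc, hc']
  · intro a ha
    have hα2 : α⁻¹ = α := inv_eq_of_mul_eq_one_left hα
    have hβ2 : β⁻¹ = β := inv_eq_of_mul_eq_one_left hβ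
    simp only [Set.mem_ofPred_eq] at ha ⊢
    rcases ha with rfl | rfl | rfl | rfl <;> simp [hα2, hβ2, hc]

section odd

variable [Finite F] (h2 : (2 : F) ≠ 0)

include h2

theorem ringChar_ne : ringChar F ≠ 2 := by
  intro hc
  apply h2
  have := ringChar.charP F
  rw [hc] at this
  exact CharTwo.two_eq_zero

theorem exists_nonsq : ∃ a : F, a ≠ 0 ∧ ∀ c : F, c ≠ 0 → (∃ s, c = s * s * 1) ∨ ∃ s, c = s * s * a := by
  classical
  have := Fintype.ofFinite F
  obtain ⟨a, ha⟩ := FiniteField.exists_nonsquare (ringChar_ne h2)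
  have ha0 : a ≠ 0 := by
    rintro rfl
    exact ha ⟨0, by simp⟩
  refine ⟨a, ha0, fun c hc => ?_⟩
  by_cases hs : IsSquare c
  · obtain ⟨s, hs⟩ := hs
    exact Or.inl ⟨s, by rw [hs, mul_one]⟩
  · right
    have h3 : (c * a) ^ (Fintype.card F / 2) = 1 := by
      rw [mul_pow, (FiniteField.pow_dichotomy (ringChar_ne h2) hc).resolve_left
        (fun h => hs ((FiniteField.isSquare_iff (ringChar_ne h2) hc).2 h)),
        (FiniteField.pow_dichotomy (ringChar_ne h2) ha0).resolve_left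
        (fun h => ha ((FiniteField.isSquare_iff (ringChar_ne h2) ha0).2 h))]
      ring
    obtain ⟨s, hs⟩ := (FiniteField.isSquare_iff (ringChar_ne h2) (mul_ne_zero hc ha0)).2 h3
    refine ⟨s / a, ?_⟩
    field_simp
    linear_combination hs

/-- the classes of `O Q` modulo `E Q`, odd characteristic -/
theorem four_mem (hG : Good Q) : ∃ (v w : V) (hv : Q v ≠ 0) (hw : Q w ≠ 0), ∀ x : OE Q,
    x = 1 ∨ x = cr v hv ∨ x = cr w hw ∨ x = cr v hv * cr w hw := by
  obtain ⟨a, ha, hsq⟩ := exists_nonsq h2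
  obtain ⟨v, hv⟩ := exists_val hG 1
  obtain ⟨w, hw⟩ := exists_val hG a
  have hv0 : Q v ≠ 0 := by
    rw [hv]
    exact one_ne_zero
  have hw0 : Q w ≠ 0 := by
    rw [hw]
    exact ha
  refine ⟨v, w, hv0, hw0, fun x => ?_⟩
  obtain ⟨K, hK⟩ := four (cr_sq v hv0) (cr_sq w hw0) (OE_comm hG _ _)
  rw [← hK]
  apply gen hG
  intro u hu
  rw [hK]
  rcases hsq (Q u) hu with ⟨s, hs⟩ | ⟨s, hs⟩
  · right
    left
    apply cr_eq hG hu hv0 (a := s)
    rw [hs, hv]
  · right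
    right
    left
    apply cr_eq hG hu hw0 (a := s)
    rw [hs, hw]

theorem cr_det (hG : Good Q) {g : V ≃ₗ[F] V} (hg : g ∈ O Q) (hd : LinearMap.det (g : V →ₗ[F] V) = 1) (v : V)
    (hv : Q v ≠ 0) : cl g hg ≠ cr v hv := by
  have := fd hG
  intro h
  have h1 := det_E hG (cl_eq hg (refl_mem_O hv) h)
  have h3 : (1 : F) = -1 := by
    calc (1 : F) = LinearMap.det (g : V →ₗ[F] V) * LinearMap.det ((g⁻¹ * refl Q v hv : V ≃ₗ[F] V) : V →ₗ[F] V) := by
          rw [hd, h1, one_mul]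
      _ = LinearMap.det (((g * (g⁻¹ * refl Q v hv) : V ≃ₗ[F] V)) : V →ₗ[F] V) := (LinearMap.det_comp _ _).symm
      _ = -1 := by rw [mul_inv_cancel_left, det_refl]
  apply h2
  linear_combination h3

/-- `|SO : Ω| ≤ 2` -/
theorem mul_mem_det (hG : Good Q) {g h : V ≃ₗ[F] V} (hg : g ∈ O Q) (hh : h ∈ O Q)
    (hgd : LinearMap.det (g : V →ₗ[F] V) = 1) (hhd : LinearMap.det (h : V →ₗ[F] V) = 1) (hgE : g ∉ E Q)
    (hhE : h ∉ E Q) : g * h ∈ E Q := by
  obtain ⟨v, w, hv, hw, h4⟩ := four_mem h2 hG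
  have key : ∀ {k : V ≃ₗ[F] V} (hk : k ∈ O Q), LinearMap.det (k : V →ₗ[F] V) = 1 → k ∉ E Q →
      cl k hk = cr v hv * cr w hw := by
    intro k hk hkd hkE
    rcases h4 (cl k hk) with h | h | h | h
    · exact absurd ((cl_eq_one hk).1 h) hkE
    · exact absurd h (cr_det h2 hG hk hkd v hv)
    · exact absurd h (cr_det h2 hG hk hkd w hw)
    · exact h
  rw [← cl_eq_one ((O Q).mul_mem hg hh), cl_mul hg hh, key hg hgd hgE, key hh hhd hhE]
  calc cr v hv * cr w hw * (cr v hv * cr w hw) = cr v hv * (cr w hw * cr v hv) * cr w hw := by simp only [mul_assoc]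
    _ = cr v hv * (cr v hv * cr w hw) * cr w hw := by rw [OE_comm hG (cr w hw)]
    _ = cr v hv * cr v hv * (cr w hw * cr w hw) := by simp only [mul_assoc]
    _ = 1 := by rw [cr_sq, cr_sq, one_mul]

end odd

section even

variable [Finite F] (h2 : (2 : F) = 0)

include h2

theorem two_mem (hG : Good Q) : ∃ (v : V) (hv : Q v ≠ 0), ∀ x : OE Q, x = 1 ∨ x = cr v hv := by
  have hchar : CharP F 2 := CharTwo.of_one_ne_zero_of_two_eq_zero one_ne_zero h2
  obtain ⟨v, hv⟩ := exists_val hG 1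
  have hv0 : Q v ≠ 0 := by
    rw [hv]
    exact one_ne_zero
  refine ⟨v, hv0, fun x => ?_⟩
  obtain ⟨K, hK⟩ := four (α := (1 : OE Q)) (β := cr v hv0) (one_mul _) (cr_sq v hv0) (OE_comm hG _ _)
  have h3 : x ∈ K := by
    apply gen hG
    intro u hu
    rw [hK]
    right
    right
    left
    obtain ⟨s, hs⟩ := FiniteField.isSquare_of_char_two (ringChar.eq F 2) (Q u)
    apply cr_eq hG hu hv0 (a := s)
    rw [hs, hv, mul_one]
  rw [hK] at h3
  simpa using h3

/-- `|O : Ω| ≤ 2` -/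
theorem mul_mem_two (hG : Good Q) {g h : V ≃ₗ[F] V} (hg : g ∈ O Q) (hh : h ∈ O Q) (hgE : g ∉ E Q)
    (hhE : h ∉ E Q) : g * h ∈ E Q := by
  obtain ⟨v, hv, h4⟩ := two_mem h2 hG
  have h5 : cl g hg = cr v hv := (h4 _).resolve_left fun h => hgE ((cl_eq_one hg).1 h)
  have h6 : cl h hh = cr v hv := (h4 _).resolve_left fun h' => hhE ((cl_eq_one hh).1 h')
  rw [← cl_eq_one ((O Q).mul_mem hg hh), cl_mul hg hh, h5, h6, cr_sq]

open Cfsg.Agent.H375.Odd Cfsg.Agent.H199.Out in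
theorem exists_OM (hG : Good Q) : ∃ K : Subgroup (V ≃ₗ[F] V), (∀ g, g ∈ K ↔ g ∈ O Q ∧
    Even (finrank F (LinearMap.range ((g : V →ₗ[F] V) - LinearMap.id)))) ∧
      (∀ f ∈ O Q, ∀ g ∈ O Q, f ∉ K → g ∉ K → f * g ∈ K) ∧ (∀ v (hv : Q v ≠ 0), refl Q v hv ∉ K) := by
  have := fd hG
  have : CharP F 2 := CharTwo.of_one_ne_zero_of_two_eq_zero one_ne_zero h2
  have hβ : Alt (polarBilin Q) := ⟨fun v => by rw [polarBilin_apply_apply, polar_self', h2, zero_mul], hG.nondeg⟩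
  have hQF : QF (⇑Q) (polarBilin Q) := ⟨fun u v => Q_add u v, fun c v => by
    rw [QuadraticMap.map_smul, smul_eq_mul, pow_two]⟩
  refine ⟨OM hβ hQF, fun g => mem_OM, fun f hf g hg hf' hg' => mul_mem_OM hβ hQF hf hg hf' hg', fun v hv => ?_⟩
  have h3 : refl Q v hv = reflE hβ v (Q v)⁻¹ := by
    ext x
    rw [Cfsg.Agent.LieClassical.OrthCore.refl_apply, reflE_apply, polarBilin_apply_apply]
    have h4 : ∀ y : V, y = -y := fun y => by
      rw [eq_neg_iff_add_eq_zero, ← two_smul F y, h2, zero_smul]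
    rw [sub_eq_add_neg, ← h4]
  rw [h3]
  exact reflE_notMem hβ hQF hv

theorem E_le_OM (hG : Good Q) {K : Subgroup (V ≃ₗ[F] V)} (hK : ∀ g, g ∈ K → g ∈ O Q)
    (hmul : ∀ f ∈ O Q, ∀ g ∈ O Q, f ∉ K → g ∉ K → f * g ∈ K) : E Q ≤ K := by
  rw [← hG.commutator_eq_E, Subgroup.commutator_le]
  intro a ha b hb
  have hconj : ∀ {x y}, x ∈ K → y ∈ O Q → y * x * y⁻¹ ∈ K := by
    intro x y hx hy
    by_cases h : y ∈ K
    · exact K.mul_mem (K.mul_mem h hx) (K.inv_mem h)
    · have h' : y⁻¹ ∉ K := fun h' => h (by simpa using K.inv_mem h')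
      have h3 : y * x ∉ K := fun h3 => h (by simpa using K.mul_mem h3 (K.inv_mem hx))
      exact hmul _ ((O Q).mul_mem hy (hK _ hx)) _ ((O Q).inv_mem hy) h3 h'
  rw [commutatorElement_def]
  by_cases h3 : a ∈ K
  · have := hconj (K.inv_mem h3) hb
    have e : a * b * a⁻¹ * b⁻¹ = a * (b * a⁻¹ * b⁻¹) := by simp only [mul_assoc]
    rw [e]
    exact K.mul_mem h3 this
  · by_cases h4 : b ∈ K
    · exact K.mul_mem (hconj h4 ha) (K.inv_mem h4)
    · have h5 := hmul a ha b hb h3 h4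
      have h6 := hmul a⁻¹ ((O Q).inv_mem ha) b⁻¹ ((O Q).inv_mem hb) (fun h => h3 (by simpa using K.inv_mem h))
        (fun h => h4 (by simpa using K.inv_mem h))
      have e : a * b * a⁻¹ * b⁻¹ = (a * b) * (a⁻¹ * b⁻¹) := by simp only [mul_assoc]
      rw [e]
      exact K.mul_mem h5 h6

/-- even rank implies `Ω` -/
theorem mem_of_even (hG : Good Q) {g : V ≃ₗ[F] V} (hg : g ∈ O Q)
    (he : Even (finrank F (LinearMap.range ((g : V →ₗ[F] V) - LinearMap.id)))) : g ∈ E Q := by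
  obtain ⟨K, hK, hmul, hr⟩ := exists_OM h2 hG
  have hEK : E Q ≤ K := E_le_OM h2 hG (fun g hg => ((hK g).1 hg).1) hmul
  by_contra hgE
  obtain ⟨v, hv⟩ := exists_val hG 1
  have hv0 : Q v ≠ 0 := by
    rw [hv]
    exact one_ne_zero
  have h3 : refl Q v hv0 ∉ E Q := fun h => hr v hv0 (hEK h)
  have h4 := hEK (mul_mem_two h2 hG hg (refl_mem_O hv0) hgE h3)
  have h5 : g ∈ K := (hK g).2 ⟨hg, he⟩
  exact hr v hv0 (by simpa using K.mul_mem (K.inv_mem h5) h4)

/-- `Ω` implies even rank -/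
theorem even_of_mem (hG : Good Q) {g : V ≃ₗ[F] V} (hg : g ∈ E Q) :
    Even (finrank F (LinearMap.range ((g : V →ₗ[F] V) - LinearMap.id))) := by
  obtain ⟨K, hK, hmul, hr⟩ := exists_OM h2 hG
  exact ((hK g).1 (E_le_OM h2 hG (fun g hg => ((hK g).1 hg).1) hmul hg)).2

/-- reflections have odd rank, `Ω` has index `2` -/
theorem refl_notMem (hG : Good Q) {v : V} (hv : Q v ≠ 0) : refl Q v hv ∉ E Q := by
  obtain ⟨K, hK, hmul, hr⟩ := exists_OM h2 hG
  exact fun h => hr v hv (E_le_OM h2 hG (fun g hg => ((hK g).1 hg).1) hmul h)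

end even

end Cfsg.Agent.H353.IFO
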